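import Cfsg.Agent.H307.FourOdd.Defs
import Cfsg.Agent.Characters.Counting
import Cfsg.Agent.Characters.GaloisBasic
import Cfsg.Agent.OddOrderCharacters.IndRes
import Cfsg.Agent.Blocks.Knorr

/-!
# TEAM FOUR (S4947): the tools (helper896)

* `K0_congr`, `K0t_congr`, `Syl4_congr`, `Row5_congr`, `RowA_congr`, `Row3_congr`, `RowB_congr`;
* `sum_odd` (P1), `even_mult` (P1'), `sum_odd_t` (P1t), `four_dvd_K0`, `K0_mod` (P2), `two_dvd_K0t`;
* `le_K0`, `lt_K0`, `lt_K0_mult`, `five_of_fin`, `five_of_four`, `five_of_four_mult`;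
* `exists_four`, `exists_four_ext`, `le_K0t`, `lt_K0t`, `three_of_fin`, `three_of_two`, `exists_two`;
* `exists_odd_constituent`, `exists_odd_constituent_t` (P3), `row3_of_threeInv`, `rowB_of_row3`.
-/

set_option autoImplicit false
set_option linter.unusedSectionVars false

namespace Cfsg.Agent.H601.FourOdd

open Cfsg Cfsg.Agent Subgroup Cfsg.Agent.Characters.Core Cfsg.Agent.H307.FourOdd
open scoped ComplexConjugate

universe u v

/-! ### Transfer -/

section Congr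

variable {S : Type u} {T : Type v} [Group S] [Group T]

/-- Irreducible characters of isomorphic groups. -/
noncomputable def irrEquiv (e : S ≃* T) : IrrCharacter S ≃ IrrCharacter T where
  toFun χ := ⟨fun x => (χ : S → ℂ) (e.symm x), isIrr_comp e.symm.toMonoidHom e.symm.surjective χ.2⟩
  invFun χ := ⟨fun x => (χ : T → ℂ) (e x), isIrr_comp e.toMonoidHom e.surjective χ.2⟩
  left_inv χ := Subtype.ext (funext fun x => congrArg (χ : S → ℂ) (e.symm_apply_apply x))
  right_inv χ := Subtype.ext (funext fun x => congrArg (χ : T → ℂ) (e.apply_symm_apply x))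

theorem irrEquiv_apply (e : S ≃* T) (χ : IrrCharacter S) (x : T) :
    (irrEquiv e χ : T → ℂ) x = (χ : S → ℂ) (e.symm x) := rfl

theorem charDegree_irrEquiv (e : S ≃* T) (χ : IrrCharacter S) :
    charDegree (irrEquiv e χ : T → ℂ) = charDegree (χ : S → ℂ) := by
  unfold charDegree
  rw [irrEquiv_apply, map_one]

theorem K0_congr (e : S ≃* T) : K0 S = K0 T := by
  refine Nat.card_congr ((irrEquiv e).subtypeEquiv fun χ => ?_)
  rw [charDegree_irrEquiv]

theorem K0t_congr (e : S ≃* T) (τ : S ≃* S) : K0t S τ = K0t T ((e.symm.trans τ).trans e) := by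
  refine Nat.card_congr ((irrEquiv e).subtypeEquiv fun χ => ?_)
  rw [charDegree_irrEquiv]
  refine and_congr Iff.rfl ⟨fun h x => ?_, fun h x => ?_⟩
  · rw [irrEquiv_apply, irrEquiv_apply]
    show (χ : S → ℂ) (e.symm (e (τ (e.symm x)))) = _
    rw [e.symm_apply_apply, h]
  · have h1 := h (e x)
    rw [irrEquiv_apply, irrEquiv_apply] at h1
    have h2 : (χ : S → ℂ) (e.symm (e (τ (e.symm (e x))))) = (χ : S → ℂ) (e.symm (e x)) := h1
    rwa [e.symm_apply_apply, e.symm_apply_apply] at h2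

theorem commutator_index_congr {A B : Type*} [Group A] [Group B] (e : A ≃* B) :
    (commutator A).index = (commutator B).index := by
  have h1 : (commutator A).map e.toMonoidHom = commutator B := by
    rw [commutator_def, commutator_def, Subgroup.map_commutator]
    have h2 : (⊤ : Subgroup A).map e.toMonoidHom = ⊤ := by
      rw [← MonoidHom.range_eq_map]
      exact MonoidHom.range_eq_top.2 e.surjective
    rw [h2]
  rw [← h1]
  exact (Subgroup.index_map_equiv (commutator A) e).symm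

theorem Syl4_congr (e : S ≃* T) (h : Syl4 S) : Syl4 T := by
  intro P
  let Q : Sylow 2 S := P.comapOfInjective e.toMonoidHom e.injective (by
    rw [MonoidHom.range_eq_top.2 e.surjective]
    exact le_top)
  have h1 := h Q
  rw [← h1]
  have h2 : (Q : Subgroup S).map e.toMonoidHom = (P : Subgroup T) := by
    show ((P : Subgroup T).comap e.toMonoidHom).map e.toMonoidHom = _
    exact Subgroup.map_comap_eq_self_of_surjective e.surjective _
  have e1 : ↥(Q : Subgroup S) ≃* ↥((Q : Subgroup S).map e.toMonoidHom) :=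
    (Q : Subgroup S).equivMapOfInjective e.toMonoidHom e.injective
  exact commutator_index_congr (e1.trans (MulEquiv.subgroupCongr h2)).symm

theorem Row5_congr (e : S ≃* T) (h : Row5 S) : Row5 T := by
  unfold Row5 at h ⊢
  rwa [← K0_congr e]

theorem RowA_congr (e : S ≃* T) (h : RowA S) : RowA T := by
  rcases h with h | h
  · left; rwa [← K0_congr e]
  · right; exact Syl4_congr e h

theorem Row3_congr (e : S ≃* T) (h : Row3 S) : Row3 T := by
  intro τ hτ
  obtain ⟨a, ha⟩ := hτ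
  have h1 := h ((e.trans τ).trans e.symm) ⟨e.symm a, fun x => by
    show e.symm (τ (e (e.symm (τ (e x))))) = _
    rw [e.apply_symm_apply, ha]
    simp⟩
  rw [K0t_congr e] at h1
  have h2 : (e.symm.trans ((e.trans τ).trans e.symm)).trans e = τ := by
    ext x
    show e (e.symm (τ (e (e.symm x)))) = τ x
    rw [e.apply_symm_apply, e.apply_symm_apply]
  rwa [h2] at h1

theorem RowB_congr {S T : Type u} [Group S] [Group T] (e : S ≃* T) (h : RowB S) : RowB T := by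
  intro G _ _ N _ hi hc hN
  obtain ⟨f⟩ := hN
  exact h G N hi hc ⟨f.trans e.symm⟩

end Congr

/-! ### Algebraic integers modulo two -/

theorem isIntegral_natCast' (n : ℕ) : IsIntegral ℤ (n : ℂ) := by
  have h := isIntegral_algebraMap (R := ℤ) (A := ℂ) (x := (n : ℤ))
  rwa [algebraMap_int_eq, eq_intCast, Int.cast_natCast] at h

theorem isIntegral_intCast' (n : ℤ) : IsIntegral ℤ (n : ℂ) := by
  have h := isIntegral_algebraMap (R := ℤ) (A := ℂ) (x := n)
  rwa [algebraMap_int_eq, eq_intCast] at h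

/-- `n = 2 a` with an algebraic integer `a` implies that `n` is even. -/
theorem even_of_integral {n : ℤ} {a : ℂ} (ha : IsIntegral ℤ a) (h : (n : ℂ) = 2 * a) : Even n := by
  have h1 : a = ((n / 2 : ℚ) : ℂ) := by
    push_cast
    rw [h]
    ring
  obtain ⟨k, hk⟩ := Characters.GaloisBasic.exists_int_of_isIntegral ha ⟨_, h1⟩
  refine ⟨k, ?_⟩
  rw [hk] at h
  have h2 : (n : ℂ) = ((k + k : ℤ) : ℂ) := by
    rw [h]
    push_cast
    ring
  exact_mod_cast h2

/-- the ring of algebraic integers modulo `2` -/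
abbrev R2 : Type := (integralClosure ℤ ℂ) ⧸ Ideal.span {(2 : integralClosure ℤ ℂ)}

theorem R2_iff (r : integralClosure ℤ ℂ) :
    (Ideal.Quotient.mk (Ideal.span {(2 : integralClosure ℤ ℂ)}) r = 0) ↔ ∃ a : ℂ, IsIntegral ℤ a ∧ (r : ℂ) = 2 * a := by
  rw [Ideal.Quotient.eq_zero_iff_mem, Ideal.mem_span_singleton]
  constructor
  · rintro ⟨a, rfl⟩
    exact ⟨a, a.2, rfl⟩
  · rintro ⟨a, ha, h⟩
    exact ⟨⟨a, ha⟩, Subtype.ext h⟩

theorem two_eq_zero : (2 : R2) = 0 := by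
  have := (Ideal.Quotient.eq_zero_iff_mem (I := Ideal.span {(2 : integralClosure ℤ ℂ)})).2
    (Ideal.mem_span_singleton_self _)
  rw [map_ofNat] at this
  exact this

/-- Pairs cancel modulo `2`. -/
theorem sum_two {ι : Type*} (s : Finset ι) (f : ι → ℂ) (hf : ∀ i ∈ s, IsIntegral ℤ (f i)) (g : ι → ι)
    (hg : ∀ i ∈ s, g i ∈ s) (hgg : ∀ i ∈ s, g (g i) = i) (hne : ∀ i ∈ s, g i ≠ i)
    (hfg : ∀ i ∈ s, f (g i) = f i) : ∃ a : ℂ, IsIntegral ℤ a ∧ ∑ i ∈ s, f i = 2 * a := by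
  classical
  let F : s → integralClosure ℤ ℂ := fun i => ⟨f i, hf i i.2⟩
  have h1 : ∑ i ∈ s.attach, Ideal.Quotient.mk (Ideal.span {(2 : integralClosure ℤ ℂ)}) (F i) = 0 := by
    refine Finset.sum_involution (fun i _ => ⟨g i, hg i i.2⟩) ?_ ?_ ?_ ?_
    · intro i _
      have h2 : F ⟨g i, hg i i.2⟩ = F i := Subtype.ext (hfg i i.2)
      rw [h2, ← two_mul, show (2 : R2) = 0 from two_eq_zero, zero_mul]
    · intro i _ _ h
      exact hne i i.2 (congrArg Subtype.val h)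
    · intro i _
      exact Finset.mem_attach _ _
    · intro i _
      exact Subtype.ext (hgg i i.2)
  rw [← map_sum, R2_iff] at h1
  obtain ⟨a, ha, h2⟩ := h1
  refine ⟨a, ha, ?_⟩
  rw [← h2, ← Finset.sum_attach s f, AddSubmonoidClass.coe_finsetSum]

/-! ### The number of characters of odd degree -/

variable {G : Type u} [Group G] [Finite G]

theorem charDegree_cast (χ : IrrCharacter G) : (χ : G → ℂ) 1 = (charDegree (χ : G → ℂ) : ℂ) :=
  Blocks.Knorr.charDegree_eq χ.2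

theorem sum_sq [Fintype (IrrCharacter G)] : ∑ χ : IrrCharacter G, charDegree (χ : G → ℂ) ^ 2 = Nat.card G := by
  classical
  have h := Characters.Counting.sum_irr_one_mul (G := G) 1
  rw [if_pos rfl] at h
  have h1 : ((∑ χ : IrrCharacter G, charDegree (χ : G → ℂ) ^ 2 : ℕ) : ℂ) = (Nat.card G : ℂ) := by
    rw [← h]
    push_cast
    refine Finset.sum_congr rfl fun χ _ => ?_
    rw [charDegree_cast]
    ring
  exact_mod_cast h1

theorem K0_eq_sum [Fintype (IrrCharacter G)] :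
    K0 G = ∑ χ : IrrCharacter G, if ¬ 2 ∣ charDegree (χ : G → ℂ) then 1 else 0 := by
  unfold K0
  rw [Finset.sum_boole, Nat.card_eq_fintype_card, Fintype.card_subtype]
  rfl

/-- **(P2)** -/
theorem K0_mod : K0 G % 4 = Nat.card G % 4 := by
  have := finite_irr (G := G)
  have := Fintype.ofFinite (IrrCharacter G)
  rw [← sum_sq, K0_eq_sum, Finset.sum_nat_mod, Finset.sum_nat_mod (f := fun χ : IrrCharacter G => charDegree (χ : G → ℂ) ^ 2)]
  congr 1
  refine Finset.sum_congr rfl fun χ _ => ?_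
  by_cases h : 2 ∣ charDegree (χ : G → ℂ)
  · rw [if_neg (not_not.2 h)]
    obtain ⟨k, hk⟩ := h
    rw [hk, mul_pow]
    omega
  · rw [if_pos h]
    have h1 : charDegree (χ : G → ℂ) % 4 = 1 ∨ charDegree (χ : G → ℂ) % 4 = 3 := by omega
    rcases h1 with h1 | h1 <;> rw [Nat.pow_mod, h1]

theorem four_dvd_K0 (h4 : 4 ∣ Nat.card G) : 4 ∣ K0 G := by
  have := K0_mod (G := G)
  omega

/-- **(P1)** -/
theorem sum_odd [Fintype (IrrCharacter G)] (h2 : 2 ∣ Nat.card G) (x : G) : ∃ a : ℂ, IsIntegral ℤ a ∧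
    ∑ χ ∈ Finset.univ.filter (fun χ : IrrCharacter G => ¬ 2 ∣ charDegree (χ : G → ℂ)), (χ : G → ℂ) x = 2 * a := by
  classical
  obtain ⟨m, hm⟩ := h2
  refine ⟨(if x = 1 then (m : ℂ) else 0) -
    ∑ χ : IrrCharacter G, ((charDegree (χ : G → ℂ) / 2 : ℕ) : ℂ) * (χ : G → ℂ) x, ?_, ?_⟩
  · refine IsIntegral.sub ?_ (IsIntegral.sum _ fun χ _ => ?_)
    · split_ifs
      · exact isIntegral_natCast' m
      · exact isIntegral_zero
    · exact IsIntegral.mul (isIntegral_natCast' _) (Characters.GaloisBasic.isIntegral_apply (isIrr_isCharacter χ.2) x)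
  · have h := Characters.Counting.sum_irr_one_mul (G := G) x
    rw [mul_sub, Finset.sum_filter, Finset.mul_sum]
    have h1 : (2 : ℂ) * (if x = 1 then (m : ℂ) else 0) = ∑ χ : IrrCharacter G, (χ : G → ℂ) 1 * (χ : G → ℂ) x := by
      rw [h, hm]
      split_ifs
      · push_cast; ring
      · ring
    rw [h1, ← Finset.sum_sub_distrib]
    refine Finset.sum_congr rfl fun χ _ => ?_
    rw [charDegree_cast]
    by_cases hd : 2 ∣ charDegree (χ : G → ℂ)
    · rw [if_neg (not_not.2 hd)]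
      obtain ⟨k, hk⟩ := hd
      rw [hk, Nat.mul_div_cancel_left _ (by norm_num)]
      push_cast
      ring
    · rw [if_pos hd]
      obtain ⟨k, hk⟩ : ∃ k, charDegree (χ : G → ℂ) = 2 * k + 1 := ⟨charDegree (χ : G → ℂ) / 2, by omega⟩
      rw [hk, show (2 * k + 1) / 2 = k by omega]
      push_cast
      ring

/-- an algebraic integer which is the restriction of a sum of values -/
theorem isIntegral_value (χ : IrrCharacter G) (x : G) : IsIntegral ℤ ((χ : G → ℂ) x) :=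
  Characters.GaloisBasic.isIntegral_apply (isIrr_isCharacter χ.2) x

/-- The sum over a finite set of characters whose sums of values are all divisible by `2`, restricted to a subgroup of
odd order. -/
theorem even_mult_of (s : Finset (IrrCharacter G)) (A : Subgroup G) [Fintype A] (hA : Odd (Nat.card A)) {ψ : A → ℂ}
    (hψ : IsIrrCharacter A ψ) (h : ∀ a : A, ∃ b : ℂ, IsIntegral ℤ b ∧ ∑ χ ∈ s, (χ : G → ℂ) a = 2 * b) :
    ∃ m : ℤ, ∑ χ ∈ s, classInner (fun a : A => (χ : G → ℂ) a) ψ = 2 * m := by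
  choose b hb hb2 using h
  -- the sum is a natural number
  have hn : ∀ χ : IrrCharacter G, ∃ n : ℕ, classInner (fun a : A => (χ : G → ℂ) a) ψ = n := fun χ =>
    classInner_isNat (isCharacter_comp A.subtype (isIrr_isCharacter χ.2)) (isIrr_isCharacter hψ)
  choose n hn using hn
  have h1 : ∑ χ ∈ s, classInner (fun a : A => (χ : G → ℂ) a) ψ = ((∑ χ ∈ s, n χ : ℕ) : ℂ) := by
    push_cast
    exact Finset.sum_congr rfl fun χ _ => hn χ
  set M : ℕ := ∑ χ ∈ s, n χ with hM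
  have hc : (Nat.card A : ℂ) ≠ 0 := card_ne_zero_complex
  have h2 : (((Nat.card A * M : ℕ) : ℤ) : ℂ) = 2 * ∑ a : A, b a * conj (ψ a) := by
    have h3 : (M : ℂ) = (Nat.card A : ℂ)⁻¹ * ∑ a : A, (∑ χ ∈ s, (χ : G → ℂ) a) * conj (ψ a) := by
      rw [← h1]
      simp only [classInner]
      rw [← Finset.mul_sum, Finset.sum_comm]
      congr 1
      refine Finset.sum_congr rfl fun a _ => ?_
      rw [Finset.sum_mul]
    push_cast
    rw [h3, ← mul_assoc, mul_inv_cancel₀ hc, one_mul, Finset.mul_sum]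
    refine Finset.sum_congr rfl fun a _ => ?_
    rw [hb2 a]
    ring
  have h4 : IsIntegral ℤ (∑ a : A, b a * conj (ψ a)) := by
    refine IsIntegral.sum _ fun a _ => (hb a).mul ?_
    exact Characters.GaloisBasic.isIntegral_apply (isCharacter_conj (isIrr_isCharacter hψ)) a
  have h5 := even_of_integral h4 h2
  have h6 : Even M := by
    have h7 : Even (Nat.card A * M) := by exact_mod_cast h5
    rcases Nat.even_mul.1 h7 with h8 | h8
    · exact absurd h8 (Nat.not_even_iff_odd.2 hA)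
    · exact h8
  obtain ⟨k, hk⟩ := h6
  refine ⟨k, ?_⟩
  rw [h1, hk]
  push_cast
  ring

/-- **(P1')** -/
theorem even_mult [Fintype (IrrCharacter G)] (h2 : 2 ∣ Nat.card G) (A : Subgroup G) [Fintype A]
    (hA : Odd (Nat.card A)) {ψ : A → ℂ} (hψ : IsIrrCharacter A ψ) :
    ∃ m : ℤ, ∑ χ ∈ Finset.univ.filter (fun χ : IrrCharacter G => ¬ 2 ∣ charDegree (χ : G → ℂ)),
      classInner (fun a : A => (χ : G → ℂ) a) ψ = 2 * m :=
  even_mult_of _ A hA hψ fun a => sum_odd h2 (a : G)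

/-! ### Lower bounds for `K0` -/

/-- Different irreducible characters of odd degree. -/
theorem le_K0 {m : ℕ} (f : Fin m → G → ℂ) (hinj : Function.Injective f)
    (hf : ∀ i, IsIrrCharacter G (f i) ∧ ¬ 2 ∣ charDegree (f i)) : m ≤ K0 G := by
  have := finite_irr (G := G)
  have h := Nat.card_le_card_of_injective
    (fun i : Fin m => (⟨⟨f i, (hf i).1⟩, (hf i).2⟩ : {χ : IrrCharacter G // ¬ 2 ∣ charDegree (χ : G → ℂ)}))
    (fun i j h => hinj (congrArg (fun t => ((t : IrrCharacter G) : G → ℂ)) (congrArg Subtype.val h)))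
  rwa [Nat.card_eq_fintype_card, Fintype.card_fin] at h

theorem K0_pos : 1 ≤ K0 G :=
  le_K0 (fun _ : Fin 1 => (1 : G → ℂ)) (fun i j _ => Subsingleton.elim i j)
    fun _ => ⟨isIrr_one, by simp [charDegree]⟩

/-- If the list is complete, the sums over the list are the sums over all characters of odd degree. -/
theorem sum_eq_of_card [Fintype (IrrCharacter G)] {m : ℕ} (f : Fin m → G → ℂ) (hinj : Function.Injective f)
    (hf : ∀ i, IsIrrCharacter G (f i) ∧ ¬ 2 ∣ charDegree (f i)) (hm : K0 G = m) (F : (G → ℂ) → ℂ) :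
    ∑ χ ∈ Finset.univ.filter (fun χ : IrrCharacter G => ¬ 2 ∣ charDegree (χ : G → ℂ)), F χ = ∑ i, F (f i) := by
  classical
  let g : Fin m → IrrCharacter G := fun i => ⟨f i, (hf i).1⟩
  have hg : Function.Injective g := fun i j h => hinj (congrArg (fun t : IrrCharacter G => (t : G → ℂ)) h)
  have h1 : Finset.univ.image g = Finset.univ.filter (fun χ : IrrCharacter G => ¬ 2 ∣ charDegree (χ : G → ℂ)) := by
    apply Finset.eq_of_subset_of_card_le
    · intro χ hχ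
      obtain ⟨i, _, rfl⟩ := Finset.mem_image.1 hχ
      exact Finset.mem_filter.2 ⟨Finset.mem_univ _, (hf i).2⟩
    · rw [Finset.card_image_of_injective _ hg, Finset.card_univ, Fintype.card_fin]
      rw [K0_eq_sum, Finset.sum_boole] at hm
      exact le_of_eq hm
  rw [← h1, Finset.sum_image (fun i _ j _ h => hg h)]

/-- **A missing character**: the sum of the values at some element is odd. -/
theorem lt_K0 (h2 : 2 ∣ Nat.card G) {m : ℕ} (f : Fin m → G → ℂ) (hinj : Function.Injective f)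
    (hf : ∀ i, IsIrrCharacter G (f i) ∧ ¬ 2 ∣ charDegree (f i)) (x : G) (n : ℤ) (hn : Odd n)
    (hx : ∑ i, f i x = n) : m < K0 G := by
  have := finite_irr (G := G)
  have := Fintype.ofFinite (IrrCharacter G)
  refine lt_of_le_of_ne (le_K0 f hinj hf) fun h => ?_
  have h1 := sum_eq_of_card f hinj hf h.symm (fun χ => χ x)
  obtain ⟨a, ha, h3⟩ := sum_odd (G := G) h2 x
  rw [h1, hx] at h3
  exact (Int.not_even_iff_odd.2 hn) (even_of_integral ha h3)

/-- **A missing character**: the sum of the multiplicities of a character of a subgroup of odd order is odd. -/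
theorem lt_K0_mult (h2 : 2 ∣ Nat.card G) {m : ℕ} (f : Fin m → G → ℂ) (hinj : Function.Injective f)
    (hf : ∀ i, IsIrrCharacter G (f i) ∧ ¬ 2 ∣ charDegree (f i)) (A : Subgroup G) [Fintype A]
    (hA : Odd (Nat.card A)) {ψ : A → ℂ} (hψ : IsIrrCharacter A ψ) (n : ℤ) (hn : Odd n)
    (hx : ∑ i, classInner (fun a : A => f i a) ψ = n) : m < K0 G := by
  have := finite_irr (G := G)
  have := Fintype.ofFinite (IrrCharacter G)
  refine lt_of_le_of_ne (le_K0 f hinj hf) fun h => ?_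
  have h1 := sum_eq_of_card f hinj hf h.symm (fun χ => classInner (fun a : A => χ a) ψ)
  obtain ⟨a, h3⟩ := even_mult (G := G) h2 A hA hψ
  rw [h1, hx] at h3
  have h4 : n = 2 * a := by exact_mod_cast h3
  exact (Int.not_even_iff_odd.2 hn) ⟨a, by rw [h4]; ring⟩

theorem five_of_fin (f : Fin 5 → G → ℂ) (hinj : Function.Injective f)
    (hf : ∀ i, IsIrrCharacter G (f i) ∧ ¬ 2 ∣ charDegree (f i)) : 5 ≤ K0 G := le_K0 f hinj hf

theorem five_of_four (h2 : 2 ∣ Nat.card G) (f : Fin 4 → G → ℂ) (hinj : Function.Injective f)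
    (hf : ∀ i, IsIrrCharacter G (f i) ∧ ¬ 2 ∣ charDegree (f i)) (x : G) (n : ℤ) (hn : Odd n)
    (hx : ∑ i, f i x = n) : 5 ≤ K0 G := lt_K0 h2 f hinj hf x n hn hx

theorem five_of_four_mult (h2 : 2 ∣ Nat.card G) (f : Fin 4 → G → ℂ) (hinj : Function.Injective f)
    (hf : ∀ i, IsIrrCharacter G (f i) ∧ ¬ 2 ∣ charDegree (f i)) (A : Subgroup G) [Fintype A]
    (hA : Odd (Nat.card A)) {ψ : A → ℂ} (hψ : IsIrrCharacter A ψ) (n : ℤ) (hn : Odd n)
    (hx : ∑ i, classInner (fun a : A => f i a) ψ = n) : 5 ≤ K0 G := lt_K0_mult h2 f hinj hf A hA hψ n hn hx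

/-- If `4 ∣ |G|`, one extra character is enough: `K0 G > 4 m` gives `K0 G ≥ 4 (m + 1)`. -/
theorem eight_of_five (h4 : 4 ∣ Nat.card G) (h : 5 ≤ K0 G) : 8 ≤ K0 G := by
  have := four_dvd_K0 h4
  omega

/-! ### The characters fixed by an automorphism -/

/-- `χ ∘ τ` -/
noncomputable def tw (τ : G ≃* G) (χ : IrrCharacter G) : IrrCharacter G := irrEquiv τ.symm χ

theorem tw_apply (τ : G ≃* G) (χ : IrrCharacter G) (x : G) : (tw τ χ : G → ℂ) x = (χ : G → ℂ) (τ x) := rfl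

theorem charDegree_tw (τ : G ≃* G) (χ : IrrCharacter G) : charDegree (tw τ χ : G → ℂ) = charDegree (χ : G → ℂ) :=
  charDegree_irrEquiv _ _

theorem tw_eq_iff (τ : G ≃* G) (χ : IrrCharacter G) : tw τ χ = χ ↔ ∀ y, (χ : G → ℂ) (τ y) = (χ : G → ℂ) y :=
  ⟨fun h y => by
    have := congrArg (fun t : IrrCharacter G => (t : G → ℂ) y) h
    exact this, fun h => Subtype.ext (funext h)⟩

theorem tw_tw {τ : G ≃* G} (hτ : ∃ a : G, ∀ x, τ (τ x) = a * x * a⁻¹) (χ : IrrCharacter G) : tw τ (tw τ χ) = χ := by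
  obtain ⟨a, ha⟩ := hτ
  refine Subtype.ext (funext fun x => ?_)
  show (χ : G → ℂ) (τ (τ x)) = _
  rw [ha]
  exact isIrr_isClassFunction χ.2 x a

open Classical in
/-- the irreducible characters of odd degree fixed by `τ` -/
noncomputable def OT [Fintype (IrrCharacter G)] (τ : G ≃* G) : Finset (IrrCharacter G) :=
  Finset.univ.filter (fun χ : IrrCharacter G => ¬ 2 ∣ charDegree (χ : G → ℂ) ∧
    ∀ y, (χ : G → ℂ) (τ y) = (χ : G → ℂ) y)

theorem mem_OT [Fintype (IrrCharacter G)] {τ : G ≃* G} {χ : IrrCharacter G} :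
    χ ∈ OT τ ↔ ¬ 2 ∣ charDegree (χ : G → ℂ) ∧ ∀ y, (χ : G → ℂ) (τ y) = (χ : G → ℂ) y := by
  simp only [OT, Finset.mem_filter, Finset.mem_univ, true_and]

theorem K0t_eq_card [Fintype (IrrCharacter G)] (τ : G ≃* G) : K0t G τ = (OT τ).card := by
  classical
  unfold K0t OT
  rw [Nat.card_eq_fintype_card, Fintype.card_subtype]

/-- Summands invariant under `χ ↦ χ ∘ τ`: the characters not fixed by `τ` cancel modulo `2`. -/
theorem sum_fixed [Fintype (IrrCharacter G)] {τ : G ≃* G} (hτ : ∃ a : G, ∀ x, τ (τ x) = a * x * a⁻¹)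
    (F : IrrCharacter G → ℂ) (hF : ∀ χ, IsIntegral ℤ (F χ)) (hFt : ∀ χ, F (tw τ χ) = F χ) :
    ∃ a : ℂ, IsIntegral ℤ a ∧
      ∑ χ ∈ Finset.univ.filter (fun χ : IrrCharacter G => ¬ 2 ∣ charDegree (χ : G → ℂ)), F χ =
        ∑ χ ∈ OT τ, F χ + 2 * a := by
  classical
  have h1 := Finset.sum_filter_add_sum_filter_not
    (Finset.univ.filter (fun χ : IrrCharacter G => ¬ 2 ∣ charDegree (χ : G → ℂ)))
    (fun χ : IrrCharacter G => tw τ χ = χ) F
  obtain ⟨a, ha, h2⟩ := sum_two ((Finset.univ.filter (fun χ : IrrCharacter G => ¬ 2 ∣ charDegree (χ : G → ℂ))).filter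
    (fun χ : IrrCharacter G => ¬ tw τ χ = χ)) F (fun χ _ => hF χ) (tw τ) (fun χ hχ => by
      rw [Finset.mem_filter, Finset.mem_filter] at hχ ⊢
      refine ⟨⟨Finset.mem_univ _, ?_⟩, fun h => hχ.2 ?_⟩
      · rw [charDegree_tw]
        exact hχ.1.2
      · rw [tw_tw hτ] at h
        exact h.symm) (fun χ _ => tw_tw hτ χ) (fun χ hχ => (Finset.mem_filter.1 hχ).2) (fun χ _ => hFt χ)
  refine ⟨a, ha, ?_⟩
  rw [← h1, h2]
  congr 1
  refine Finset.sum_congr ?_ fun _ _ => rfl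
  ext χ
  rw [Finset.mem_filter, Finset.mem_filter, mem_OT, tw_eq_iff]
  exact ⟨fun h => ⟨h.1.2, h.2⟩, fun h => ⟨⟨Finset.mem_univ _, h.1⟩, h.2⟩⟩

/-- **(P1t)** -/
theorem sum_odd_t [Fintype (IrrCharacter G)] {τ : G ≃* G} (hτ : ∃ a : G, ∀ x, τ (τ x) = a * x * a⁻¹)
    (h2 : 2 ∣ Nat.card G) (x : G) (hx : IsConj x (τ x)) :
    ∃ a : ℂ, IsIntegral ℤ a ∧ ∑ χ ∈ OT τ, (χ : G → ℂ) x = 2 * a := by
  obtain ⟨a, ha, h3⟩ := sum_odd h2 x
  obtain ⟨b, hb, h4⟩ := sum_fixed hτ (fun χ => (χ : G → ℂ) x) (fun χ => isIntegral_value χ x) (fun χ => by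
    obtain ⟨c, hc⟩ := isConj_iff.1 hx
    show (χ : G → ℂ) (τ x) = _
    rw [← hc]
    exact isIrr_isClassFunction χ.2 x c)
  refine ⟨a - b, ha.sub hb, ?_⟩
  rw [h3] at h4
  linear_combination -h4

/-- (P1t) for the multiplicities. -/
theorem even_mult_t [Fintype (IrrCharacter G)] {τ : G ≃* G} (hτ : ∃ a : G, ∀ x, τ (τ x) = a * x * a⁻¹)
    (h2 : 2 ∣ Nat.card G) (A : Subgroup G) [Fintype A] (hA : Odd (Nat.card A))
    (hAt : ∀ a ∈ A, IsConj a (τ a)) {ψ : A → ℂ} (hψ : IsIrrCharacter A ψ) :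
    ∃ m : ℤ, ∑ χ ∈ OT τ, classInner (fun a : A => (χ : G → ℂ) a) ψ = 2 * m :=
  even_mult_of _ A hA hψ fun a => sum_odd_t hτ h2 (a : G) (hAt a a.2)

theorem even_card_of_odd (s : Finset (IrrCharacter G)) (hs : ∀ χ ∈ s, ¬ 2 ∣ charDegree (χ : G → ℂ)) {a : ℂ}
    (ha : IsIntegral ℤ a) (h : ∑ χ ∈ s, (χ : G → ℂ) 1 = 2 * a) : 2 ∣ s.card := by
  have h1 : (((s.card : ℕ) : ℤ) : ℂ) = 2 * (a - ∑ χ ∈ s, ((charDegree (χ : G → ℂ) / 2 : ℕ) : ℂ)) := by
    rw [mul_sub, ← h, Finset.mul_sum, ← Finset.sum_sub_distrib]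
    have h2 : ∀ χ ∈ s, (χ : G → ℂ) 1 - 2 * ((charDegree (χ : G → ℂ) / 2 : ℕ) : ℂ) = 1 := by
      intro χ hχ
      rw [charDegree_cast]
      obtain ⟨k, hk⟩ : ∃ k, charDegree (χ : G → ℂ) = 2 * k + 1 :=
        ⟨charDegree (χ : G → ℂ) / 2, by have := hs χ hχ; omega⟩
      rw [hk, show (2 * k + 1) / 2 = k by omega]
      push_cast
      ring
    rw [Finset.sum_congr rfl h2]
    simp
  have h2 := even_of_integral (ha.sub (IsIntegral.sum _ fun χ _ => isIntegral_natCast' _)) h1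
  exact (even_iff_two_dvd).1 (by exact_mod_cast h2)

theorem two_dvd_K0t {τ : G ≃* G} (hτ : ∃ a : G, ∀ x, τ (τ x) = a * x * a⁻¹) (h2 : 2 ∣ Nat.card G) :
    2 ∣ K0t G τ := by
  have := finite_irr (G := G)
  have := Fintype.ofFinite (IrrCharacter G)
  rw [K0t_eq_card]
  obtain ⟨a, ha, h⟩ := sum_odd_t hτ h2 1 (by rw [map_one])
  exact even_card_of_odd _ (fun χ hχ => (mem_OT.1 hχ).1) ha h

/-- Different characters fixed by `τ`. -/
theorem le_K0t (τ : G ≃* G) {m : ℕ} (f : Fin m → G → ℂ) (hinj : Function.Injective f)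
    (hf : ∀ i, IsIrrCharacter G (f i) ∧ ¬ 2 ∣ charDegree (f i) ∧ ∀ y, f i (τ y) = f i y) : m ≤ K0t G τ := by
  have := finite_irr (G := G)
  have h := Nat.card_le_card_of_injective
    (fun i : Fin m => (⟨⟨f i, (hf i).1⟩, (hf i).2⟩ : {χ : IrrCharacter G // ¬ 2 ∣ charDegree (χ : G → ℂ) ∧
      ∀ y, (χ : G → ℂ) (τ y) = (χ : G → ℂ) y}))
    (fun i j h => hinj (congrArg (fun t => ((t : IrrCharacter G) : G → ℂ)) (congrArg Subtype.val h)))
  rwa [Nat.card_eq_fintype_card, Fintype.card_fin] at h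

theorem K0t_pos (τ : G ≃* G) : 1 ≤ K0t G τ :=
  le_K0t τ (fun _ : Fin 1 => (1 : G → ℂ)) (fun i j _ => Subsingleton.elim i j)
    fun _ => ⟨isIrr_one, by simp [charDegree], fun _ => rfl⟩

theorem sum_eq_of_card_t [Fintype (IrrCharacter G)] (τ : G ≃* G) {m : ℕ} (f : Fin m → G → ℂ)
    (hinj : Function.Injective f)
    (hf : ∀ i, IsIrrCharacter G (f i) ∧ ¬ 2 ∣ charDegree (f i) ∧ ∀ y, f i (τ y) = f i y) (hm : K0t G τ = m)
    (F : (G → ℂ) → ℂ) : ∑ χ ∈ OT τ, F χ = ∑ i, F (f i) := by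
  classical
  let g : Fin m → IrrCharacter G := fun i => ⟨f i, (hf i).1⟩
  have hg : Function.Injective g := fun i j h => hinj (congrArg (fun t : IrrCharacter G => (t : G → ℂ)) h)
  have h1 : Finset.univ.image g = OT τ := by
    apply Finset.eq_of_subset_of_card_le
    · intro χ hχ
      obtain ⟨i, _, rfl⟩ := Finset.mem_image.1 hχ
      exact mem_OT.2 (hf i).2
    · rw [Finset.card_image_of_injective _ hg, Finset.card_univ, Fintype.card_fin, ← K0t_eq_card, hm]
  rw [← h1, Finset.sum_image (fun i _ j _ h => hg h)]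

/-- **A missing fixed character.** -/
theorem lt_K0t {τ : G ≃* G} (hτ : ∃ a : G, ∀ x, τ (τ x) = a * x * a⁻¹) (h2 : 2 ∣ Nat.card G) {m : ℕ}
    (f : Fin m → G → ℂ) (hinj : Function.Injective f)
    (hf : ∀ i, IsIrrCharacter G (f i) ∧ ¬ 2 ∣ charDegree (f i) ∧ ∀ y, f i (τ y) = f i y) (x : G)
    (hx : IsConj x (τ x)) (n : ℤ) (hn : Odd n) (hs : ∑ i, f i x = n) : m < K0t G τ := by
  have := finite_irr (G := G)
  have := Fintype.ofFinite (IrrCharacter G)
  refine lt_of_le_of_ne (le_K0t τ f hinj hf) fun h => ?_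
  have h1 := sum_eq_of_card_t τ f hinj hf h.symm (fun χ => χ x)
  obtain ⟨a, ha, h3⟩ := sum_odd_t hτ h2 x hx
  rw [h1, hs] at h3
  exact (Int.not_even_iff_odd.2 hn) (even_of_integral ha h3)

theorem lt_K0t_mult {τ : G ≃* G} (hτ : ∃ a : G, ∀ x, τ (τ x) = a * x * a⁻¹) (h2 : 2 ∣ Nat.card G) {m : ℕ}
    (f : Fin m → G → ℂ) (hinj : Function.Injective f)
    (hf : ∀ i, IsIrrCharacter G (f i) ∧ ¬ 2 ∣ charDegree (f i) ∧ ∀ y, f i (τ y) = f i y)
    (A : Subgroup G) [Fintype A] (hA : Odd (Nat.card A)) (hAt : ∀ a ∈ A, IsConj a (τ a)) {ψ : A → ℂ}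
    (hψ : IsIrrCharacter A ψ) (n : ℤ) (hn : Odd n) (hs : ∑ i, classInner (fun a : A => f i a) ψ = n) :
    m < K0t G τ := by
  have := finite_irr (G := G)
  have := Fintype.ofFinite (IrrCharacter G)
  refine lt_of_le_of_ne (le_K0t τ f hinj hf) fun h => ?_
  have h1 := sum_eq_of_card_t τ f hinj hf h.symm (fun χ => classInner (fun a : A => χ a) ψ)
  obtain ⟨a, h3⟩ := even_mult_t hτ h2 A hA hAt hψ
  rw [h1, hs] at h3
  have h4 : n = 2 * a := by exact_mod_cast h3
  exact (Int.not_even_iff_odd.2 hn) ⟨a, by rw [h4]; ring⟩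

theorem three_of_fin (τ : G ≃* G) (f : Fin 3 → G → ℂ) (hinj : Function.Injective f)
    (hf : ∀ i, IsIrrCharacter G (f i) ∧ ¬ 2 ∣ charDegree (f i) ∧ ∀ y, f i (τ y) = f i y) : 3 ≤ K0t G τ :=
  le_K0t τ f hinj hf

theorem three_of_two {τ : G ≃* G} (hτ : ∃ a : G, ∀ x, τ (τ x) = a * x * a⁻¹) (h2 : 2 ∣ Nat.card G)
    (f : Fin 2 → G → ℂ) (hinj : Function.Injective f)
    (hf : ∀ i, IsIrrCharacter G (f i) ∧ ¬ 2 ∣ charDegree (f i) ∧ ∀ y, f i (τ y) = f i y) (x : G)
    (hx : IsConj x (τ x)) (n : ℤ) (hn : Odd n) (hs : ∑ i, f i x = n) : 3 ≤ K0t G τ :=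
  lt_K0t hτ h2 f hinj hf x hx n hn hs

/-- The trivial character and one more. -/
theorem three_of_one {τ : G ≃* G} (hτ : ∃ a : G, ∀ x, τ (τ x) = a * x * a⁻¹) (h2 : 2 ∣ Nat.card G)
    {ξ : G → ℂ} (hξ : IsIrrCharacter G ξ) (hd : ¬ 2 ∣ charDegree ξ) (hne : ξ ≠ 1) (ht : ∀ y, ξ (τ y) = ξ y)
    (x : G) (hx : IsConj x (τ x)) (n : ℤ) (hn : Even n) (hs : ξ x = n) : 3 ≤ K0t G τ := by
  refine three_of_two hτ h2 ![1, ξ] ?_ ?_ x hx (1 + n) (by
    obtain ⟨k, hk⟩ := hn
    exact ⟨k, by rw [hk]; ring⟩) ?_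
  · intro i j h
    fin_cases i <;> fin_cases j <;> simp_all
  · intro i
    fin_cases i
    · exact ⟨isIrr_one, by simp [charDegree], fun _ => rfl⟩
    · exact ⟨hξ, hd, ht⟩
  · rw [Fin.sum_univ_two]
    show (1 : ℂ) + ξ x = _
    rw [hs]
    push_cast
    ring

/-! ### Lists of all characters of odd degree -/

/-- A list of different elements of a finite type extends to a list of all elements. -/
theorem exists_equiv_ext {X : Type*} {m k : ℕ} (hk : k ≤ m) (hm : Nat.card X = m) (hm0 : 0 < m) (g : Fin k → X)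
    (hg : Function.Injective g) : ∃ f : Fin m ≃ X, ∀ i, f (Fin.castLE hk i) = g i := by
  classical
  have hfin : Finite X := Nat.finite_of_card_ne_zero (by omega)
  let e0 : Fin m ≃ X := (Finite.equivFinOfCardEq hm).symm
  let a : Fin k → Fin m := Fin.castLE hk
  let b : Fin k → Fin m := fun i => e0.symm (g i)
  have ha : Function.Injective a := Fin.castLE_injective hk
  have hb : Function.Injective b := fun i j h => hg (e0.symm.injective h)
  let E : {x : Fin m // x ∈ Set.range a} ≃ {x : Fin m // x ∈ Set.range b} :=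
    (Equiv.ofInjective a ha).symm.trans (Equiv.ofInjective b hb)
  refine ⟨(E.extendSubtype).trans e0, fun i => ?_⟩
  have h1 : a i ∈ Set.range a := ⟨i, rfl⟩
  show e0 (E.extendSubtype (a i)) = g i
  rw [Equiv.extendSubtype_apply_of_mem E (a i) h1]
  have h2 : E ⟨a i, h1⟩ = ⟨b i, ⟨i, rfl⟩⟩ := by
    show (Equiv.ofInjective b hb) ((Equiv.ofInjective a ha).symm ⟨a i, h1⟩) = _
    have h3 : (Equiv.ofInjective a ha).symm ⟨a i, h1⟩ = i := by
      rw [Equiv.symm_apply_eq]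
      rfl
    rw [h3]
    rfl
  rw [h2]
  exact e0.apply_symm_apply (g i)

/-- The list of all irreducible characters of odd degree, beginning with given ones. -/
theorem exists_list {m k : ℕ} (hk : k ≤ m) (hm : K0 G = m) (g : Fin k → G → ℂ) (hg : Function.Injective g)
    (hg' : ∀ i, IsIrrCharacter G (g i) ∧ ¬ 2 ∣ charDegree (g i)) :
    ∃ f : Fin m → IrrCharacter G, Function.Injective f ∧ (∀ i, ¬ 2 ∣ charDegree (f i : G → ℂ)) ∧
      (∀ χ : IrrCharacter G, ¬ 2 ∣ charDegree (χ : G → ℂ) → ∃ i, f i = χ) ∧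
      ∀ i : Fin k, (f (Fin.castLE hk i) : G → ℂ) = g i := by
  obtain ⟨f, hf⟩ := exists_equiv_ext (X := {χ : IrrCharacter G // ¬ 2 ∣ charDegree (χ : G → ℂ)}) hk hm
    (by have := K0_pos (G := G); omega) (fun i => ⟨⟨g i, (hg' i).1⟩, (hg' i).2⟩)
    (fun i j h => hg (congrArg (fun t => ((t : IrrCharacter G) : G → ℂ)) (congrArg Subtype.val h)))
  refine ⟨fun i => (f i).1, fun i j h => f.injective (Subtype.ext h), fun i => (f i).2, fun χ hχ => ?_, fun i => ?_⟩
  · exact ⟨f.symm ⟨χ, hχ⟩, by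
      show (f (f.symm ⟨χ, hχ⟩)).1 = χ
      rw [f.apply_symm_apply]⟩
  · show (((f (Fin.castLE hk i)).1 : IrrCharacter G) : G → ℂ) = g i
    rw [hf]

theorem K0_eq_four (h4 : 4 ∣ Nat.card G) (h : ¬ 5 ≤ K0 G) : K0 G = 4 := by
  have h1 := four_dvd_K0 h4
  have h2 := K0_pos (G := G)
  omega

theorem exists_four (h4 : 4 ∣ Nat.card G) (h : ¬ 5 ≤ K0 G) : ∃ f : Fin 4 → IrrCharacter G, Function.Injective f ∧
    (∀ i, ¬ 2 ∣ charDegree (f i : G → ℂ)) ∧ ∀ χ : IrrCharacter G, ¬ 2 ∣ charDegree (χ : G → ℂ) → ∃ i, f i = χ := by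
  obtain ⟨f, h1, h2, h3, -⟩ := exists_list (G := G) (m := 4) (k := 0) (by norm_num) (K0_eq_four h4 h) Fin.elim0
    (fun i => i.elim0) (fun i => i.elim0)
  exact ⟨f, h1, h2, h3⟩

/-- `exists_four` with `k` given characters at the beginning. -/
theorem exists_four_ext (h4 : 4 ∣ Nat.card G) (h : ¬ 5 ≤ K0 G) {k : ℕ} (hk : k ≤ 4) (g : Fin k → G → ℂ)
    (hg : Function.Injective g) (hg' : ∀ i, IsIrrCharacter G (g i) ∧ ¬ 2 ∣ charDegree (g i)) :
    ∃ f : Fin 4 → IrrCharacter G, Function.Injective f ∧ (∀ i, ¬ 2 ∣ charDegree (f i : G → ℂ)) ∧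
      (∀ χ : IrrCharacter G, ¬ 2 ∣ charDegree (χ : G → ℂ) → ∃ i, f i = χ) ∧
      ∀ i : Fin k, (f (Fin.castLE hk i) : G → ℂ) = g i :=
  exists_list hk (K0_eq_four h4 h) g hg hg'

/-- Three known characters and the fourth one `χ`: its values are the negatives of the sums, modulo `2`. -/
theorem exists_fourth (h4 : 4 ∣ Nat.card G) (h : ¬ 5 ≤ K0 G) (g : Fin 3 → G → ℂ) (hg : Function.Injective g)
    (hg' : ∀ i, IsIrrCharacter G (g i) ∧ ¬ 2 ∣ charDegree (g i)) :
    ∃ χ : IrrCharacter G, ¬ 2 ∣ charDegree (χ : G → ℂ) ∧ (∀ i, (χ : G → ℂ) ≠ g i) ∧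
      (∀ ξ : IrrCharacter G, ¬ 2 ∣ charDegree (ξ : G → ℂ) → (ξ : G → ℂ) = χ ∨ ∃ i, (ξ : G → ℂ) = g i) ∧
      ∀ x : G, ∃ a : ℂ, IsIntegral ℤ a ∧ (χ : G → ℂ) x = (∑ i, g i x) + 2 * a := by
  have := finite_irr (G := G)
  have := Fintype.ofFinite (IrrCharacter G)
  obtain ⟨f, h1, h2, h3, h5⟩ := exists_four_ext h4 h (by norm_num : 3 ≤ 4) g hg hg'
  have h6 : ∀ i : Fin 3, Fin.castLE (by norm_num : 3 ≤ 4) i ≠ (3 : Fin 4) := by
    intro i
    fin_cases i <;> decide
  refine ⟨f 3, h2 3, fun i hi => ?_, fun ξ hξ => ?_, fun x => ?_⟩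
  · rw [← h5 i] at hi
    exact h6 i (h1 (Subtype.ext hi)).symm
  · obtain ⟨i, rfl⟩ := h3 ξ hξ
    fin_cases i
    · exact Or.inr ⟨0, h5 0⟩
    · exact Or.inr ⟨1, h5 1⟩
    · exact Or.inr ⟨2, h5 2⟩
    · exact Or.inl rfl
  · have h7 : 2 ∣ Nat.card G := (by norm_num : 2 ∣ 4).trans h4
    obtain ⟨a, ha, h8⟩ := sum_odd h7 x
    rw [sum_eq_of_card (fun i => (f i : G → ℂ)) (fun i j hij => h1 (Subtype.ext hij))
      (fun i => ⟨(f i).2, h2 i⟩) (K0_eq_four h4 h) (fun χ => χ x)] at h8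
    rw [Fin.sum_univ_four] at h8
    have e0 : (f 0 : G → ℂ) = g 0 := h5 0
    have e1 : (f 1 : G → ℂ) = g 1 := h5 1
    have e2 : (f 2 : G → ℂ) = g 2 := h5 2
    refine ⟨a - ∑ i, g i x, ha.sub (IsIntegral.sum _ fun i _ =>
      Characters.GaloisBasic.isIntegral_apply (isIrr_isCharacter (hg' i).1) x), ?_⟩
    rw [Fin.sum_univ_three]
    rw [e0, e1, e2] at h8
    linear_combination h8

/-- Exactly two fixed characters. -/
theorem exists_two {τ : G ≃* G} (hτ : ∃ a : G, ∀ x, τ (τ x) = a * x * a⁻¹) (h2 : 2 ∣ Nat.card G)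
    (h : ¬ 3 ≤ K0t G τ) : ∃ ξ : IrrCharacter G, (ξ : G → ℂ) ≠ 1 ∧ ¬ 2 ∣ charDegree (ξ : G → ℂ) ∧
      (∀ y, (ξ : G → ℂ) (τ y) = (ξ : G → ℂ) y) ∧
      ∀ χ : IrrCharacter G, ¬ 2 ∣ charDegree (χ : G → ℂ) → (∀ y, (χ : G → ℂ) (τ y) = (χ : G → ℂ) y) →
        (χ : G → ℂ) = 1 ∨ χ = ξ := by
  have h3 := two_dvd_K0t hτ h2
  have h4 := K0t_pos τ
  have h5 : K0t G τ = 2 := by omega
  obtain ⟨f, hf⟩ := exists_equiv_ext (X := {χ : IrrCharacter G // ¬ 2 ∣ charDegree (χ : G → ℂ) ∧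
    ∀ y, (χ : G → ℂ) (τ y) = (χ : G → ℂ) y}) (k := 1) (m := 2) (by norm_num) h5 (by norm_num)
    (fun _ => ⟨⟨1, isIrr_one⟩, by simp [charDegree], fun _ => rfl⟩) (fun i j _ => Subsingleton.elim i j)
  have h6 : ((f 0).1 : G → ℂ) = 1 := by
    have := hf 0
    exact congrArg (fun t => ((t : IrrCharacter G) : G → ℂ)) (congrArg Subtype.val this)
  refine ⟨(f 1).1, fun h7 => ?_, (f 1).2.1, (f 1).2.2, fun χ h7 h8 => ?_⟩
  · have h8 : f 1 = f 0 := Subtype.ext (Subtype.ext (h7.trans h6.symm))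
    exact absurd (f.injective h8) (by decide)
  · obtain ⟨i, hi⟩ := f.surjective ⟨χ, h7, h8⟩
    have h9 : (f i).1 = χ := congrArg Subtype.val hi
    fin_cases i
    · left
      rw [← h9]
      exact h6
    · right
      exact h9.symm

/-! ### Constituents of odd degree -/

section Constituent

variable {G : Type u} [Group G] [Fintype G]

/-- **(P3)** The degree of a generalized character modulo two. -/
theorem parity_sum [Fintype (IrrCharacter G)] {Φ : G → ℂ} (hΦ : IsGeneralizedCharacter G Φ) :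
    ∃ m : ℤ, Φ 1 = ∑ χ ∈ Finset.univ.filter (fun χ : IrrCharacter G => ¬ 2 ∣ charDegree (χ : G → ℂ)),
      classInner Φ χ + 2 * m := by
  obtain ⟨z, hz⟩ := isGeneralizedCharacter_iff.1 hΦ
  have h1 : ∀ χ : IrrCharacter G, classInner Φ χ = z χ := fun χ => by rw [hz]; exact classInner_sum_zsmul_irr z χ
  have hk : ∀ χ : IrrCharacter G, ∃ k : ℕ, charDegree (χ : G → ℂ) = 2 * k + if ¬ 2 ∣ charDegree (χ : G → ℂ) then 1 else 0 := by
    intro χ
    refine ⟨charDegree (χ : G → ℂ) / 2, ?_⟩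
    by_cases hd : 2 ∣ charDegree (χ : G → ℂ)
    · rw [if_neg (not_not.2 hd)]
      omega
    · rw [if_pos hd]
      omega
  choose k hk using hk
  refine ⟨∑ χ : IrrCharacter G, z χ * (k χ : ℤ), ?_⟩
  rw [Finset.sum_filter]
  have h2 : Φ 1 = ∑ χ : IrrCharacter G, (z χ : ℂ) * (charDegree (χ : G → ℂ) : ℂ) := by
    rw [hz, Finset.sum_apply]
    refine Finset.sum_congr rfl fun χ _ => ?_
    rw [Pi.smul_apply, charDegree_cast, zsmul_eq_mul]
  rw [h2]
  push_cast
  rw [Finset.mul_sum, ← Finset.sum_add_distrib]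
  refine Finset.sum_congr rfl fun χ _ => ?_
  rw [h1]
  have h3 := hk χ
  by_cases hd : 2 ∣ charDegree (χ : G → ℂ)
  · rw [if_neg (not_not.2 hd)] at h3 ⊢
    rw [h3]
    push_cast
    ring
  · rw [if_pos hd] at h3 ⊢
    rw [h3]
    push_cast
    ring

theorem exists_int_inner [Fintype (IrrCharacter G)] {Φ : G → ℂ} (hΦ : IsGeneralizedCharacter G Φ)
    (χ : IrrCharacter G) : ∃ m : ℤ, classInner Φ χ = m := by
  obtain ⟨z, hz⟩ := isGeneralizedCharacter_iff.1 hΦ
  exact ⟨z χ, by rw [hz]; exact classInner_sum_zsmul_irr z χ⟩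

theorem exists_odd_of_sum {ι : Type*} (s : Finset ι) (F : ι → ℂ) (hF : ∀ i, ∃ m : ℤ, F i = m) {n m : ℤ}
    (hn : Odd n) (h : (n : ℂ) = ∑ i ∈ s, F i + 2 * m) : ∃ i ∈ s, ∃ k : ℤ, Odd k ∧ F i = k := by
  choose z hz using hF
  by_contra hcon
  push Not at hcon
  have h1 : ∀ i ∈ s, Even (z i) := fun i hi => by
    by_contra h2
    exact hcon i hi (z i) (Int.not_even_iff_odd.1 h2) (hz i)
  have h2 : Even (∑ i ∈ s, z i) := Finset.sum_induction _ Even (fun _ _ => Even.add) (by simp) h1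
  have h3 : n = ∑ i ∈ s, z i + 2 * m := by
    have h4 : (n : ℂ) = ((∑ i ∈ s, z i + 2 * m : ℤ) : ℂ) := by
      rw [h]
      push_cast
      congr 1
      exact Finset.sum_congr rfl fun i _ => hz i
    exact_mod_cast h4
  rw [h3] at hn
  exact (Int.not_even_iff_odd.2 hn) (h2.add (even_two_mul m))

/-- **(P3)** A generalized character of odd degree has a constituent of odd degree with odd multiplicity. -/
theorem exists_constituent {Φ : G → ℂ} (hΦ : IsGeneralizedCharacter G Φ) {n : ℤ} (hn : Odd n) (h1 : Φ 1 = n) :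
    ∃ χ : IrrCharacter G, ¬ 2 ∣ charDegree (χ : G → ℂ) ∧ ∃ k : ℤ, Odd k ∧ classInner Φ χ = k := by
  have := finite_irr (G := G)
  have := Fintype.ofFinite (IrrCharacter G)
  obtain ⟨m, hm⟩ := parity_sum hΦ
  rw [h1] at hm
  obtain ⟨χ, hχ, h⟩ := exists_odd_of_sum _ (fun χ : IrrCharacter G => classInner Φ χ) (exists_int_inner hΦ) hn hm
  exact ⟨χ, (Finset.mem_filter.1 hχ).2, h⟩

theorem classInner_comp (τ : G ≃* G) (φ ψ : G → ℂ) :
    classInner (fun x => φ (τ x)) (fun x => ψ (τ x)) = classInner φ ψ := by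
  simp only [classInner]
  congr 1
  exact Fintype.sum_equiv τ.toEquiv _ _ fun x => rfl

/-- **(P3)** with an automorphism. -/
theorem exists_constituent_t {τ : G ≃* G} (hτ : ∃ a : G, ∀ x, τ (τ x) = a * x * a⁻¹) {Φ : G → ℂ}
    (hΦ : IsGeneralizedCharacter G Φ) (hΦt : ∀ x, Φ (τ x) = Φ x) {n : ℤ} (hn : Odd n) (h1 : Φ 1 = n) :
    ∃ χ : IrrCharacter G, ¬ 2 ∣ charDegree (χ : G → ℂ) ∧ (∀ y, (χ : G → ℂ) (τ y) = (χ : G → ℂ) y) ∧
      ∃ k : ℤ, Odd k ∧ classInner Φ χ = k := by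
  have := finite_irr (G := G)
  have := Fintype.ofFinite (IrrCharacter G)
  obtain ⟨m, hm⟩ := parity_sum hΦ
  have hint := exists_int_inner hΦ
  obtain ⟨a, ha, h2⟩ := sum_fixed hτ (fun χ : IrrCharacter G => classInner Φ χ) (fun χ => by
    obtain ⟨k, hk⟩ := hint χ
    show IsIntegral ℤ (classInner Φ χ)
    rw [hk]
    exact isIntegral_intCast' k) (fun χ => by
    show classInner Φ (fun x => (χ : G → ℂ) (τ x)) = classInner Φ χ
    rw [← classInner_comp τ Φ χ]
    congr 1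
    exact funext fun x => (hΦt x).symm)
  -- `a` is an integer
  obtain ⟨b, hb⟩ : ∃ b : ℤ, a = b := by
    choose z hz using hint
    have h3 : a = (((∑ χ ∈ Finset.univ.filter (fun χ : IrrCharacter G => ¬ 2 ∣ charDegree (χ : G → ℂ)), z χ -
        ∑ χ ∈ OT τ, z χ : ℤ) / 2 : ℚ) : ℂ) := by
      have h4 : ∑ χ ∈ Finset.univ.filter (fun χ : IrrCharacter G => ¬ 2 ∣ charDegree (χ : G → ℂ)), classInner Φ χ =
          ((∑ χ ∈ Finset.univ.filter (fun χ : IrrCharacter G => ¬ 2 ∣ charDegree (χ : G → ℂ)), z χ : ℤ) : ℂ) := by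
        push_cast
        exact Finset.sum_congr rfl fun χ _ => hz χ
      have h5 : ∑ χ ∈ OT τ, classInner Φ χ = ((∑ χ ∈ OT τ, z χ : ℤ) : ℂ) := by
        push_cast
        exact Finset.sum_congr rfl fun χ _ => hz χ
      rw [h4, h5] at h2
      rw [Int.cast_sub, Rat.cast_div, Rat.cast_sub, Rat.cast_intCast, Rat.cast_intCast, h2]
      push_cast
      ring
    exact Characters.GaloisBasic.exists_int_of_isIntegral ha ⟨_, h3⟩
  rw [h2, hb, h1] at hm
  obtain ⟨χ, hχ, h⟩ := exists_odd_of_sum (OT τ) (fun χ : IrrCharacter G => classInner Φ χ) hint hn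
    (m := b + m) (by rw [hm]; push_cast; ring)
  exact ⟨χ, (mem_OT.1 hχ).1, (mem_OT.1 hχ).2, h⟩

theorem odd_cast {d : ℕ} (h : ¬ 2 ∣ d) : Odd (d : ℤ) := by
  rw [← Int.not_even_iff_odd, Int.even_coe_nat, even_iff_two_dvd]
  exact h

/-- Frobenius reciprocity. -/
theorem frob (H : Subgroup G) [Fintype H] {ψ : H → ℂ} (hψ : IsIrrCharacter H ψ) (χ : IrrCharacter G) :
    classInner (indFun H ψ) (χ : G → ℂ) = classInner (fun h : H => (χ : G → ℂ) h) ψ := by
  have h1 : classInner (indFun H ψ) (χ : G → ℂ) = classInner ψ (fun h : H => (χ : G → ℂ) h) :=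
    OddOrderCharacters.IndRes.classInner_indFun_left H ψ (isIrr_isClassFunction χ.2)
  have h2 : IsCharacter H (fun h : H => (χ : G → ℂ) h) := isCharacter_comp H.subtype (isIrr_isCharacter χ.2)
  obtain ⟨n, hn⟩ := classInner_isNat h2 (isIrr_isCharacter hψ)
  rw [h1, ← classInner_conj_symm, hn, map_natCast]

/-- Over an irreducible character of odd degree of a subgroup of odd index there is one of odd degree. -/
theorem exists_odd_constituent (H : Subgroup G) [Fintype H] (hidx : Odd H.index) {ψ : H → ℂ}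
    (hψ : IsIrrCharacter H ψ) (hd : ¬ 2 ∣ charDegree ψ) : ∃ χ : IrrCharacter G, ¬ 2 ∣ charDegree (χ : G → ℂ) ∧
      classInner (fun h : H => (χ : G → ℂ) h) ψ ≠ 0 := by
  have h1 : indFun H ψ 1 = (((H.index : ℤ) * (charDegree ψ : ℤ) : ℤ) : ℂ) := by
    rw [OddOrderCharacters.IndRes.indFun_apply_one, Blocks.Knorr.charDegree_eq hψ]
    push_cast
    rfl
  have h2 : Odd ((H.index : ℤ) * (charDegree ψ : ℤ)) := by
    refine Odd.mul ?_ (odd_cast hd)
    exact_mod_cast hidx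
  have h3 : IsGeneralizedCharacter G (indFun H ψ) :=
    ⟨indFun H ψ, 0, OddOrderCharacters.IndRes.isCharacter_indFun H (isIrr_isCharacter hψ), isCharacter_zero,
      (sub_zero _).symm⟩
  obtain ⟨χ, h4, k, hk, h5⟩ := exists_constituent h3 h2 h1
  refine ⟨χ, h4, ?_⟩
  rw [← frob H hψ χ, h5]
  intro h6
  have h7 : k = 0 := by exact_mod_cast h6
  rw [h7] at hk
  exact absurd hk (by decide)

/-- The same with an automorphism fixing the induced character. -/
theorem exists_odd_constituent_t {τ : G ≃* G} (hτ : ∃ a : G, ∀ x, τ (τ x) = a * x * a⁻¹) (H : Subgroup G)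
    [Fintype H] (hidx : Odd H.index) {ψ : H → ℂ} (hψ : IsIrrCharacter H ψ) (hd : ¬ 2 ∣ charDegree ψ)
    (ht : ∀ x, indFun H ψ (τ x) = indFun H ψ x) : ∃ χ : IrrCharacter G, ¬ 2 ∣ charDegree (χ : G → ℂ) ∧
      (∀ y, (χ : G → ℂ) (τ y) = (χ : G → ℂ) y) ∧ classInner (fun h : H => (χ : G → ℂ) h) ψ ≠ 0 := by
  have h1 : indFun H ψ 1 = (((H.index : ℤ) * (charDegree ψ : ℤ) : ℤ) : ℂ) := by
    rw [OddOrderCharacters.IndRes.indFun_apply_one, Blocks.Knorr.charDegree_eq hψ]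
    push_cast
    rfl
  have h2 : Odd ((H.index : ℤ) * (charDegree ψ : ℤ)) := by
    refine Odd.mul ?_ (odd_cast hd)
    exact_mod_cast hidx
  have h3 : IsGeneralizedCharacter G (indFun H ψ) :=
    ⟨indFun H ψ, 0, OddOrderCharacters.IndRes.isCharacter_indFun H (isIrr_isCharacter hψ), isCharacter_zero,
      (sub_zero _).symm⟩
  obtain ⟨χ, h4, h4', k, hk, h5⟩ := exists_constituent_t hτ h3 ht h2 h1
  refine ⟨χ, h4, h4', ?_⟩
  rw [← frob H hψ χ, h5]
  intro h6
  have h7 : k = 0 := by exact_mod_cast h6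
  rw [h7] at hk
  exact absurd hk (by decide)

end Constituent

/-! ### The rows -/

theorem row3_of_threeInv {S : Type u} [Group S] [Finite S] (h : H601.OddDeg.ThreeInv S) : Row3 S := by
  intro τ _
  obtain ⟨a, b, c, ha, hb, hc, hab, hac, hbc⟩ := h
  refine three_of_fin τ ![a, b, c] ?_ ?_
  · intro i j hij
    fin_cases i <;> fin_cases j <;> simp_all
  · intro i
    fin_cases i
    · exact ⟨ha.1, ha.2.2.1, ha.2.2.2 τ⟩
    · exact ⟨hb.1, hb.2.2.1, hb.2.2.2 τ⟩
    · exact ⟨hc.1, hc.2.2.1, hc.2.2.2 τ⟩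

theorem rowB_of_row3 {S : Type u} [Group S] [Finite S] (h : Row3 S) : RowB S := by
  intro G _ _ N _ hi _ hN
  left
  obtain ⟨e⟩ := hN
  have h' : Row3 ↥N := Row3_congr e.symm h
  -- an element outside `N`
  obtain ⟨g, hg⟩ : ∃ g : G, g ∉ N := by
    by_contra hcon
    push Not at hcon
    have : N = ⊤ := (eq_top_iff' N).2 hcon
    rw [this, index_top] at hi
    omega
  have hg2 : g * g ∈ N := by
    have := Subgroup.sq_mem_of_index_two hi g
    rwa [pow_two] at this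
  have h1 := h' (MulAut.conjNormal g : MulAut ↥N) ⟨⟨g * g, hg2⟩, fun x => by
    apply Subtype.ext
    show ((MulAut.conjNormal g ((MulAut.conjNormal g : MulAut ↥N) x) : ↥N) : G) = _
    rw [MulAut.conjNormal_apply, MulAut.conjNormal_apply]
    show g * (g * (x : G) * g⁻¹) * g⁻¹ = (g * g) * (x : G) * (g * g)⁻¹
    group⟩
  refine h1.trans (le_of_eq ?_)
  refine Nat.card_congr (Equiv.subtypeEquivRight fun χ => and_congr Iff.rfl ⟨fun h2 y x => ?_, fun h2 x => h2 g x⟩)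
  -- `y ∈ N` or `y = n g`
  by_cases hy : y ∈ N
  · have h3 : (MulAut.conjNormal y : MulAut ↥N) x = (⟨y, hy⟩ : ↥N) * x * (⟨y, hy⟩ : ↥N)⁻¹ := by
      apply Subtype.ext
      rw [MulAut.conjNormal_apply]
      rfl
    rw [h3]
    exact isIrr_isClassFunction χ.2 x _
  · have hn : y * g⁻¹ ∈ N := by
      have h4 := Subgroup.mul_mem_iff_of_index_two hi (a := y) (b := g⁻¹)
      rw [h4, inv_mem_iff]
      exact iff_of_false hy hg
    have h3 : (MulAut.conjNormal y : MulAut ↥N) x =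
        (⟨y * g⁻¹, hn⟩ : ↥N) * (MulAut.conjNormal g : MulAut ↥N) x * (⟨y * g⁻¹, hn⟩ : ↥N)⁻¹ := by
      apply Subtype.ext
      rw [MulAut.conjNormal_apply]
      show _ = (y * g⁻¹) * ((MulAut.conjNormal g : MulAut ↥N) x : G) * (y * g⁻¹)⁻¹
      rw [MulAut.conjNormal_apply]
      group
    rw [h3, ← h2 x]
    exact isIrr_isClassFunction χ.2 _ _

end Cfsg.Agent.H601.FourOdd
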